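import Cfsg.Agent.Lib.Ord.Orth
import Cfsg.Agent.Lib.MI.O7
import Cfsg.Agent.Lib.Forms.SU3
import Cfsg.Agent.Lib.GLn.Spec2
import Cfsg.Agent.Lib.GLn.ClassBounds
import Cfsg.Agent.Lib.Chev.Poincare
import Cfsg.Agent.Lib.Suz.Iso

/-! The order of a classical, Chevalley or Suzuki group compared with the order of its unipotent subgroup. -/

set_option autoImplicit false

namespace Cfsg.Agent.OrdB

open Module Cfsg.Agent.Forms Cfsg.Agent.Forms.Form

variable {F : Type} [Field F] [Fintype F] {p : ℕ} (hp : p.Prime) [CharP F p]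
include hp

theorem not_dvd_card_sub_one : ¬ p ∣ Nat.card F - 1 := by
  have := Fact.mk hp
  obtain ⟨n, hn, h⟩ := ChevM.exists_card_eq (F := F) p
  intro h1
  rw [h, Nat.dvd_sub_iff_right (Nat.one_le_pow _ _ hp.pos) (dvd_pow_self p hn.ne')] at h1
  exact hp.one_lt.ne' (Nat.dvd_one.1 h1)

theorem not_dvd_center_SL (n : ℕ) :
    ¬ p ∣ Nat.card (Subgroup.center (Matrix.SpecialLinearGroup (Fin (n + 1)) F)) := fun h =>
  not_dvd_card_sub_one (F := F) hp (h.trans (by rw [GLn.card_center_SL]; exact Nat.gcd_dvd_right _ _))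

theorem big_PSL {n : ℕ} (hn : 3 ≤ n) : Big p (Nat.card (Matrix.ProjectiveSpecialLinearGroup (Fin n) F)) := by
  obtain ⟨n, rfl⟩ := Nat.exists_eq_add_of_le' hn
  refine Big.quot hp (not_dvd_center_SL hp (n + 2)) ?_
  rw [GLn.card_SL_eq (n + 2)]
  refine big_of_lt (exists_card_eq_pow F p) Nat.card_pos (Dvd.intro _ rfl) ((Nat.mul_lt_mul_of_le_of_lt le_rfl
    (prod_lt Nat.card_pos (by omega) fun i => i + 2) (pow_pos Nat.card_pos _)).trans_eq (pow_add _ _ _).symm) ?_
  have h1 := Finset.sum_range_id_mul_two (n + 2)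
  have h2 := Nat.triangle_succ
  have h3 : (n + 2 + 1).choose 2 * 2 = (n + 3) * (n + 2) := by
    rw [Nat.choose_two_right, Nat.div_mul_cancel (Nat.even_mul_pred_self _).two_dvd]; rfl
  rw [Finset.sum_add_distrib, Finset.sum_const, Finset.card_range, smul_eq_mul]
  simp only [Nat.add_succ_sub_one] at h1
  nlinarith

theorem card_PSL_two : Nat.card (Matrix.ProjectiveSpecialLinearGroup (Fin 2) F) < Nat.card F ^ 3 ∧
    Nat.card F = p ^ (Nat.card (Matrix.ProjectiveSpecialLinearGroup (Fin 2) F)).factorization p := by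
  have h1 := Subgroup.card_eq_card_quotient_mul_card_subgroup (Subgroup.center (Matrix.SpecialLinearGroup (Fin 2) F))
  have h2 := not_dvd_center_SL (F := F) hp 1
  have h3 := Nat.card_pos (α := Subgroup.center (Matrix.SpecialLinearGroup (Fin 2) F))
  have h4 := Nat.card_pos (α := F)
  rw [GLn.card_SL_eq 1] at h1
  simp only [Nat.reduceAdd, Nat.choose_self, pow_one, Finset.range_one, Finset.prod_singleton, zero_add] at h1 h2
  refine ⟨lt_of_le_of_lt (Nat.le_mul_of_pos_right _ h3) (h1 ▸ ?_), ?_⟩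
  · rw [pow_succ' _ 2]
    exact Nat.mul_lt_mul_of_pos_left (Nat.sub_lt (by positivity) one_pos) h4
  · obtain ⟨n, hn⟩ := exists_card_eq_pow F p
    have h5 : ¬ p ∣ Nat.card F ^ 2 - 1 := fun h => by
      have := Fact.mk hp
      obtain ⟨n, h0, hn⟩ := ChevM.exists_card_eq (F := F) p
      rw [Nat.dvd_sub_iff_right (Nat.one_le_pow _ _ h4) (dvd_pow (hn ▸ dvd_pow_self p h0.ne') two_ne_zero)] at h
      exact hp.one_lt.ne' (Nat.dvd_one.1 h)
    have h6 : (_ : ℕ).factorization p = (_ : ℕ).factorization p := congrArg (·.factorization p) h1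
    rw [Nat.factorization_mul h4.ne' fun e => h5 (by rw [e]; exact dvd_zero p), Nat.factorization_mul Nat.card_pos.ne' h3.ne',
      Finsupp.add_apply, Finsupp.add_apply, Nat.factorization_eq_zero_of_not_dvd h5,
      Nat.factorization_eq_zero_of_not_dvd h2, add_zero, add_zero] at h6
    rw [← h6, hn, hp.factorization_pow, Finsupp.single_eq_same]

theorem big_PSp {m : ℕ} (hm : 2 ≤ m) : Big p (Nat.card (PSp m F)) := by
  have : Nonempty (Fin m) := ⟨⟨0, by omega⟩⟩
  refine Big.quot hp (not_dvd_center hp (spEquiv m F).toMonoidHom (spEquiv m F).injective fun z hz =>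
    ((spForm_nondeg m).sp_mem_center_iff _).1 ((mem_center_equiv (spEquiv m F) z).1 hz)) ?_
  rw [card_symplecticGroup]
  refine big_of_lt (exists_card_eq_pow F p) Nat.card_pos (Dvd.intro _ rfl) ((Nat.mul_lt_mul_of_le_of_lt le_rfl
    (prod_lt Nat.card_pos (by omega) fun i => 2 * (i + 1)) (pow_pos Nat.card_pos _)).trans_eq (pow_add _ _ _).symm) ?_
  have h1 := Finset.sum_range_id_mul_two m
  obtain ⟨m, rfl⟩ := Nat.exists_eq_add_of_le' hm
  rw [← Finset.mul_sum, Finset.sum_add_distrib, Finset.sum_const, Finset.card_range, smul_eq_mul]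
  simp only [Nat.add_succ_sub_one] at h1
  nlinarith

omit hp in
theorem su_num {q : ℤ} (hq : 2 ≤ q) (k : ℕ) :
    ∏ i ∈ Finset.range (k + 1), q ^ (i + 1) * (q ^ (i + 1 + 1) - (-1) ^ (i + 1 + 1)) < q ^ ((k + 1) * (k + 3)) := by
  have h0 : 0 < q := by omega
  have h1 : ∀ j, ∀ a : ℤ, a ≤ q ^ (2 * j * (2 * j + 2)) →
      a * (q ^ (2 * j + 1) * (q ^ (2 * j + 1 + 1) - (-1) ^ (2 * j + 1 + 1))) < q ^ ((2 * j + 1) * (2 * j + 3)) ∧
      a * (q ^ (2 * j + 1) * (q ^ (2 * j + 1 + 1) - (-1) ^ (2 * j + 1 + 1))) *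
        (q ^ (2 * j + 1 + 1) * (q ^ (2 * j + 1 + 1 + 1) - (-1) ^ (2 * j + 1 + 1 + 1))) <
        q ^ ((2 * j + 2) * (2 * j + 4)) := fun j a ha => by
    have h2 : (1 : ℤ) < q ^ (2 * j + 1 + 1) := one_lt_pow₀ (by omega) (by omega)
    have h3 : (-1 : ℤ) ^ (2 * j + 1 + 1) = 1 := by rw [add_assoc, pow_add, pow_mul]; simp
    rw [pow_succ (-1) (2 * j + 1 + 1), h3]
    constructor
    · calc _ ≤ q ^ (2 * j * (2 * j + 2)) * (q ^ (2 * j + 1) * (q ^ (2 * j + 1 + 1) - 1)) :=
            mul_le_mul_of_nonneg_right ha (mul_nonneg (by positivity) (by omega))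
        _ < q ^ (2 * j * (2 * j + 2)) * (q ^ (2 * j + 1) * q ^ (2 * j + 1 + 1)) :=
            mul_lt_mul_of_pos_left (mul_lt_mul_of_pos_left (by omega) (by positivity)) (by positivity)
        _ = _ := by ring
    · calc _ = a * (q ^ (4 * j + 3) * ((q ^ (2 * j + 1 + 1) - 1) * (q ^ (2 * j + 1 + 1) * q + 1))) := by ring
        _ ≤ q ^ (2 * j * (2 * j + 2)) * (q ^ (4 * j + 3) * ((q ^ (2 * j + 1 + 1) - 1) * (q ^ (2 * j + 1 + 1) * q + 1))) :=
            mul_le_mul_of_nonneg_right ha (mul_nonneg (by positivity) (mul_nonneg (by omega) (by positivity)))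
        _ < q ^ (2 * j * (2 * j + 2)) * (q ^ (4 * j + 3) * (q ^ (2 * j + 1 + 1) * (q ^ (2 * j + 1 + 1) * q))) :=
            mul_lt_mul_of_pos_left (mul_lt_mul_of_pos_left (by nlinarith) (by positivity)) (by positivity)
        _ = _ := by ring
  have h2 : ∀ j, ∏ i ∈ Finset.range (2 * j), q ^ (i + 1) * (q ^ (i + 1 + 1) - (-1) ^ (i + 1 + 1)) ≤
      q ^ (2 * j * (2 * j + 2)) := fun j => by
    induction j with
    | zero => simp
    | succ j ih => rw [mul_add, mul_one, Finset.prod_range_succ, Finset.prod_range_succ]; exact (h1 j _ ih).2.le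
  obtain ⟨j, rfl | rfl⟩ := Nat.even_or_odd' k
  · rw [Finset.prod_range_succ]; exact (h1 j _ (h2 j)).1
  · rw [Finset.prod_range_succ, Finset.prod_range_succ]; exact (h1 j _ (h2 j)).2

theorem big_PSU {n q : ℕ} (hF : Fintype.card F = q ^ 2) (hn : 3 ≤ n) : Big p (Nat.card (PSU n F q)) := by
  refine Big.quot hp (not_dvd_center hp ((uForm n hF).SIsom.subtype.comp (suEquiv n hF).toMonoidHom)
    (Subtype.val_injective.comp (suEquiv n hF).injective) fun z hz =>
    ((uForm_nondeg n hF).su_mem_center_iff (by simp; omega) _).1 ((mem_center_equiv (suEquiv n hF) z).1 hz)) ?_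
  obtain ⟨n, rfl⟩ := Nat.exists_eq_add_of_le' hn
  have h1 := (uForm_nondeg (n + 3) hF).card_gu (n := n + 3) (by simp)
  rw [← (uForm_nondeg (n + 3) hF).card_SIsom, ← Nat.card_congr (suEquiv (n + 3) hF).toEquiv, Finset.prod_range_succ',
    Nat.cast_mul, Nat.cast_add] at h1
  simp only [pow_zero, one_mul, zero_add, pow_one, sub_neg_eq_add, Nat.cast_one] at h1
  have h2 := mul_right_cancel₀ (by positivity) h1
  have h3 : 2 ≤ q := by
    by_contra h
    have := Fintype.one_lt_card (α := F)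
    have : q ≤ 1 := by omega
    nlinarith
  obtain ⟨f, hf⟩ := exists_card_eq_pow F p
  obtain ⟨j, -, hj⟩ := (Nat.dvd_prime_pow hp).1 (show q ∣ p ^ f by
    rw [← hf, Nat.card_eq_fintype_card, hF]; exact dvd_pow_self q two_ne_zero)
  refine big_of_lt ⟨j, hj⟩ (by omega) (N := ∑ i ∈ Finset.range (n + 2), (i + 1)) (D := (n + 2) * (n + 4)) ?_ ?_ ?_
  · rw [← Int.natCast_dvd_natCast, h2, Nat.cast_pow, ← Finset.prod_pow_eq_pow_sum]
    exact Finset.prod_dvd_prod_of_dvd _ _ fun i _ => Dvd.intro _ rfl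
  · have := su_num (q := q) (by exact_mod_cast h3) (n + 1)
    rw [← h2] at this
    exact_mod_cast this
  · have h4 := Finset.sum_range_id_mul_two (n + 2)
    rw [Finset.sum_add_distrib, Finset.sum_const, Finset.card_range, smul_eq_mul]
    simp only [Nat.add_succ_sub_one] at h4
    nlinarith

theorem big_POmega {ι : Type} [Fintype ι] [DecidableEq ι] {f : Form (Param.orth F) (ι → F)} (hf : f.Nondeg) {m r : ℕ}
    (hm : 3 ≤ m) (hr : r = 1 ∨ r = 0 ∧ 3 ≤ Nat.card F) (h : finrank F (ι → F) = 2 * m + r + 1) :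
    Big p (Nat.card (POmega F f.Q)) := by
  rw [Nat.card_congr (centerQuotEquiv (commutatorEquiv (orthEquiv f))).toEquiv]
  exact big_omega hf hp hm hr h

theorem big_odd {m : ℕ} (hm : 3 ≤ m) (h : Odd (Fintype.card F)) : Big p (Nat.card (POmega F (quadFormOdd m F))) := by
  have h1 := Fintype.one_lt_card (α := F)
  rw [← oddForm_Q]
  refine big_POmega hp (oddForm_nondeg m fun e => ?_) hm (Or.inr ⟨rfl, ?_⟩) (finrank_odd m)
  · exact Nat.not_even_iff_odd.2 h (Nat.card_eq_fintype_card (α := F) ▸ MI.even_card e)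
  · obtain ⟨k, hk⟩ := h
    rw [Nat.card_eq_fintype_card]
    omega

theorem big_plus {m : ℕ} (hm : 4 ≤ m) : Big p (Nat.card (POmega F (quadFormPlus m F))) := by
  rw [← plusForm_Q]
  exact big_POmega hp (plusForm_nondeg m) (m := m - 1) (by omega) (Or.inl rfl) ((finrank_plus m).trans (by omega))

theorem big_minus {m : ℕ} (hm : 3 ≤ m) {a b : F}
    (h : ∀ z₁ z₂ : F, z₁ ^ 2 + a * z₁ * z₂ + b * z₂ ^ 2 = 0 → z₁ = 0 ∧ z₂ = 0) :
    Big p (Nat.card (POmega F (quadFormMinus m F a b))) := by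
  rw [← minusForm_Q]
  exact big_POmega hp (minusForm_nondeg m (disc_ne_zero_of_anisotropic h)) hm (Or.inl rfl) (finrank_minus m)

omit hp in
theorem big_chev {D : Lie.ChevalleyDatum} [Chev.Tab D] {d : List ℕ} (h : Chev.Degrees D d) (h0 : d ≠ [])
    (h1 : 3 * (D.nroots / 2 + d.sum) ≤ 8 * (D.nroots / 2)) : Big p (Nat.card (D.group F)) := by
  have h2 : ∀ d : List ℕ, 0 ≤ (d.map fun e => (Nat.card F : ℤ) ^ e - 1).prod ∧
      (d.map fun e => (Nat.card F : ℤ) ^ e - 1).prod ≤ (Nat.card F : ℤ) ^ d.sum := fun d => by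
    have h3 : ∀ e, (1 : ℤ) ≤ (Nat.card F : ℤ) ^ e := fun e => one_le_pow₀ (by exact_mod_cast Nat.card_pos)
    induction d with
    | nil => simp
    | cons e d ih =>
      rw [List.map_cons, List.prod_cons, List.sum_cons, pow_add]
      exact ⟨mul_nonneg (sub_nonneg.2 (h3 e)) ih.1, mul_le_mul (by omega) ih.2 ih.1 (by positivity)⟩
  refine big_of_lt (exists_card_eq_pow F p) Nat.card_pos (ChevM.card_U (D := D) (F := F) ▸ Subgroup.card_subgroup_dvd_card _)
    (lt_of_le_of_lt (Nat.le_mul_of_pos_right _ (Nat.card_pos (α := (ChevM.cm D (F := F)).ker))) ?_) h1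
  obtain ⟨e, d, rfl⟩ := List.exists_cons_of_ne_nil h0
  have h3 := h.card_group F
  have h4 : (0 : ℤ) < Nat.card F := by exact_mod_cast Nat.card_pos
  rw [← Nat.cast_lt (α := ℤ), Nat.cast_mul, h3, List.map_cons, List.prod_cons, List.sum_cons, Nat.cast_pow, pow_add,
    pow_add]
  refine mul_lt_mul_of_pos_left (lt_of_le_of_lt (mul_le_mul_of_nonneg_left (h2 d).2 ?_)
    (mul_lt_mul_of_pos_right (sub_one_lt _) (by positivity))) (by positivity)
  exact sub_nonneg.2 (one_le_pow₀ h4)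

omit hp in
theorem big_suz {m : ℕ} (hm : 1 ≤ m) (hF : Fintype.card F = 2 ^ (2 * m + 1)) :
    Big 2 (Nat.card (Lie.Sz F (2 ^ (m + 1)))) := by
  have := Suz.SuzF.of_card hm hF
  rw [← Nat.card_congr (Suz.lieEquiv F).toEquiv, Suz.card_G]
  obtain ⟨q, hq⟩ : ∃ q, 2 ^ (2 * m + 1) = q + 1 := Nat.exists_eq_succ_of_ne_zero (by positivity)
  refine big_of_lt ⟨_, rfl⟩ (by positivity) (N := 2) (D := 5) (Dvd.intro _ (mul_assoc _ _ _).symm) ?_ (by decide)
  rw [hq, Nat.add_sub_cancel]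
  calc _ < (q + 1) ^ 2 * (q * ((q + 1) ^ 2 + 1)) + (q + 1) ^ 2 * (q ^ 2 + q + 1) := by rw [mul_assoc]; exact lt_add_of_pos_right _ (by positivity)
    _ = _ := by ring

end Cfsg.Agent.OrdB
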