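import Cfsg.Agent.Lib.Ord.Basic
import Cfsg.Agent.Lib.MI.O6

/-! Bounds for the orders of orthogonal groups. -/

set_option autoImplicit false

namespace Cfsg.Agent.OrdB

open Module Cfsg.Agent.Forms Cfsg.Agent.Forms.Form Cfsg.Agent.MI Polynomial

universe u

variable {F : Type*} [Field F] [Fintype F] {V : Type u} [AddCommGroup V] [Module F V] [Finite V]
  {f : Form (Param.orth F) V}

theorem ncard_Q_mul_le {T : Set V} {a : V} (ha : f.Q a ≠ 0) (hT : ∀ v ∈ T, ∀ t : F, v + t • a ∈ T) (c : F) :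
    {v | v ∈ T ∧ f.Q v = c}.ncard * Nat.card F ≤ 2 * T.ncard := by
  classical
  have := Fintype.ofFinite V
  rw [Set.ncard_eq_toFinset_card, Set.ncard_eq_toFinset_card T, Nat.card_eq_fintype_card, ← Finset.card_univ,
    ← Finset.card_product]
  refine Finset.card_le_mul_card_image_of_maps_to (f := fun p => p.1 + p.2 • a) (fun p hp => ?_) 2 fun w _ => ?_
  · simp only [Finset.mem_product, Set.Finite.mem_toFinset, Set.mem_ofPred_eq] at hp ⊢
    exact hT _ hp.1.1 _
  · have h0 : (C (f.Q a) * X ^ 2 + C (-f.B w a) * X + C (f.Q w - c) : F[X]) ≠ 0 := fun e => ha (by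
      simpa [coeff_X, coeff_C] using congrArg (coeff · 2) e)
    refine le_trans (Finset.card_le_card_of_injOn (t := (C (f.Q a) * X ^ 2 + C (-f.B w a) * X +
      C (f.Q w - c) : F[X]).roots.toFinset) (fun p => p.2) (fun p hp => ?_) fun p hp p' hp' h => ?_)
      ((Multiset.toFinset_card_le _).trans ((card_roots' _).trans natDegree_quadratic_le))
    · simp only [Finset.coe_filter, Finset.mem_product, Set.Finite.mem_toFinset, Set.mem_ofPred_eq] at hp
      have h1 : p.1 = w - p.2 • a := eq_sub_of_add_eq hp.2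
      have h2 := hp.1.1.2
      rw [h1, orth_Q_sub, orth_Q_smul, orth_B_smul_right] at h2
      simp only [Finset.mem_coe, Multiset.mem_toFinset, mem_roots h0, IsRoot.def, eval_add, eval_mul, eval_C,
        eval_pow, eval_X]
      linear_combination h2
    · simp only [Finset.coe_filter, Set.mem_ofPred_eq] at hp hp'
      have h1 : p.2 = p'.2 := h
      exact Prod.ext (add_right_cancel (hp.2.trans (h1 ▸ hp'.2.symm))) h1

theorem ncard_B_eq (hf : f.Nondeg) {a : V} (ha : a ≠ 0) (c : F) :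
    {v | f.B v a = c}.ncard = Nat.card F ^ (finrank F V - 1) :=
  card_fiber_dual (f.B.flip a) (fun h => by
    obtain ⟨y, hy⟩ := hf.exists_ne_zero ha
    exact hy (f.B_eq_zero_symm (LinearMap.congr_fun h y))) c

theorem card_isom_le {a : V} (ha : f.Q a ≠ 0) :
    Nat.card f.Isom * Nat.card F ≤ 2 * Nat.card F ^ finrank F V * Nat.card (MulAction.stabilizer f.Isom a) := by
  have h1 := ncard_Q_mul_le (T := Set.univ) ha (by simp) (f.Q a)
  rw [Set.ncard_univ, Module.natCard_eq_pow_finrank (K := F) (V := V)] at h1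
  rw [← (MulAction.stabilizer f.Isom a).index_mul_card, MulAction.index_stabilizer, mul_right_comm]
  refine Nat.mul_le_mul_right _ (le_trans (Nat.mul_le_mul_right _ (Set.ncard_le_ncard ?_)) h1)
  rintro _ ⟨g, rfl⟩
  exact ⟨trivial, Isom.map_Q g a⟩

theorem two_dvd_card (hf : f.Nondeg) [Nontrivial V] : 2 ∣ Nat.card f.Isom := by
  obtain ⟨a, ha⟩ := hf.orth_exists_Q_ne
  have h0 : a ≠ 0 := by rintro rfl; exact ha f.Q_zero
  obtain ⟨y, hy⟩ := hf.exists_ne_zero h0
  have := Fact.mk Nat.prime_two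
  refine (orderOf_eq_prime (x := f.refl a ha) (p := 2) (by rw [sq, refl_mul_self]) fun e => ?_) ▸
    orderOf_dvd_natCard _
  have := f.refl_apply a ha y
  rw [e] at this
  have h1 : ((f.Q a)⁻¹ * f.B y a) • a = 0 := sub_eq_self.1 this.symm
  simp only [smul_eq_zero, mul_eq_zero, inv_eq_zero, ha, h0, false_or, or_false] at h1
  exact hy (f.B_eq_zero_symm h1)

theorem card_one (hf : f.Nondeg) (h : finrank F V = 1) : Nat.card f.Isom ≤ 2 := by
  have : Nontrivial V := Module.nontrivial_of_finrank_pos (R := F) (by omega)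
  obtain ⟨a, ha⟩ := hf.orth_exists_Q_ne
  have h0 : a ≠ 0 := by rintro rfl; exact ha f.Q_zero
  have h1 := card_isom_le ha
  have h2 : MulAction.stabilizer f.Isom a = ⊥ := eq_bot_iff.2 fun g hg => Isom.ext fun v => by
    obtain ⟨c, rfl⟩ := (finrank_eq_one_iff_of_nonzero' a h0).1 h v
    rw [map_smul]
    exact congrArg _ hg
  rw [h2, h, Subgroup.card_bot, pow_one, mul_one] at h1
  exact Nat.le_of_mul_le_mul_right h1 Nat.card_pos

theorem card_two (hf : f.Nondeg) (h : finrank F V = 2) : Nat.card f.Isom ≤ 4 * Nat.card F := by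
  have : Nontrivial V := Module.nontrivial_of_finrank_pos (R := F) (by omega)
  obtain ⟨a, ha⟩ := hf.orth_exists_Q_ne
  have h0 : a ≠ 0 := by rintro rfl; exact ha f.Q_zero
  have hs : ∀ b, b ∉ F ∙ a → Submodule.span F {a, b} = ⊤ := fun b hb => by
    refine Submodule.eq_top_of_finrank_eq (le_antisymm (Submodule.finrank_le _) ?_)
    rw [h, show 2 = finrank F (F ∙ a) + 1 by rw [finrank_span_singleton h0]]
    exact Submodule.finrank_lt_finrank_of_lt (lt_of_le_of_ne (Submodule.span_mono (by simp)) fun e =>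
      hb (e ▸ Submodule.subset_span (by simp)))
  obtain ⟨d, hd, h1⟩ : ∃ d, f.Q d ≠ 0 ∧ f.B d a = 0 := by
    obtain ⟨d, hd, hd0⟩ := (f.orth (F ∙ a)).exists_mem_ne_zero_of_ne_bot fun e => by
      have := hf.finrank_orth_singleton h0
      rw [e, finrank_bot] at this
      omega
    refine ⟨d, fun hQ => ?_, mem_orth_singleton.1 hd⟩
    by_cases hda : d ∈ F ∙ a
    · obtain ⟨c, rfl⟩ := Submodule.mem_span_singleton.1 hda
      rw [orth_Q_smul] at hQ
      simp only [mul_eq_zero, or_self, ha, or_false] at hQ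
      simp [hQ] at hd0
    · obtain ⟨y, hy⟩ := hf.exists_ne_zero hd0
      obtain ⟨s, t, rfl⟩ := Submodule.mem_span_pair.1 ((hs d hda).ge (Submodule.mem_top (x := y)))
      exact hy (by rw [B_add_right, orth_B_smul_right, orth_B_smul_right, mem_orth_singleton.1 hd,
        f.B_self_of_Q hQ]; simp)
  obtain ⟨b, hb⟩ : ∃ b, b ∉ F ∙ a := by
    by_contra hc
    push Not at hc
    have := finrank_span_singleton (K := F) h0
    rw [show F ∙ a = ⊤ from eq_top_iff.2 fun v _ => hc v, finrank_top] at this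
    omega
  have h2 := ncard_Q_mul_le (T := {v | f.B v a = f.B b a}) hd (fun v hv t => by
    simp only [Set.mem_ofPred_eq] at hv ⊢
    rw [B_add_left, B_smul_left, h1, hv]; simp) (f.Q b)
  rw [ncard_B_eq hf h0, h, pow_one] at h2
  have h3 : Nat.card (MulAction.stabilizer f.Isom a) ≤ 2 :=
    (Nat.card_le_card_of_injective (β := {v | v ∈ {v | f.B v a = f.B b a} ∧ f.Q v = f.Q b})
      (fun g => ⟨g.1.1 b, by
        have h4 : g.1.1 a = a := g.2
        simpa [h4] using Isom.map_B g.1 b a, Isom.map_Q g.1 b⟩) fun g g' e => Subtype.ext (Isom.ext fun v => by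
        obtain ⟨s, t, rfl⟩ := Submodule.mem_span_pair.1 ((hs b hb).ge (Submodule.mem_top (x := v)))
        have h4 : g.1.1 a = a := g.2
        have h5 : g'.1.1 a = a := g'.2
        have h6 : g.1.1 b = g'.1.1 b := congrArg Subtype.val e
        simp [h4, h5, h6])).trans (Nat.le_of_mul_le_mul_right h2 Nat.card_pos)
  have h4 := (card_isom_le ha).trans (Nat.mul_le_mul_left _ h3)
  rw [h] at h4
  exact Nat.le_of_mul_le_mul_right (by nlinarith) (Nat.card_pos (α := F))

theorem card_step (hf : f.Nondeg) {u e : V} (h : f.HypPair u e) {k : ℕ} (hk : finrank F V = k + 3) :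
    ∃ s, 2 * s ≤ 3 * Nat.card F ^ (k + 2) ∧ Nat.card f.Isom = s * Nat.card F ^ (k + 1) *
      Nat.card (f.restrict (f.orth (LinearMap.range (pairMap F u e)))).Isom := by
  have := Fintype.ofFinite V
  refine ⟨Nat.card {v // f.Q v = 0 ∧ v ≠ 0}, ?_, ?_⟩
  · have h1 := card_perp_Q hf h.Qu h.u_ne_zero (k := k + 1) hk 0
    have h0 := h.finrank_orth hf
    have : Nontrivial (f.orth (Submodule.span F {u, e})) := Module.nontrivial_of_finrank_pos (R := F) (by omega)
    obtain ⟨a, ha⟩ := (h.restrict_orth_nondeg hf).orth_exists_Q_ne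
    have h2 := ncard_Q_mul_le (T := {v | f.B v u = 0}) (a := a.1) ha (fun v hv t => by
      simp only [Set.mem_ofPred_eq] at hv ⊢
      rw [B_add_left, B_smul_left, (mem_orth_pair.1 a.2).1, hv]; simp) 0
    rw [ncard_B_eq hf h.u_ne_zero, hk, show k + 3 - 1 = k + 1 + 1 from rfl, pow_succ, ← mul_assoc] at h2
    have h3 := Nat.le_of_mul_le_mul_right h2 Nat.card_pos
    have h4 : Nat.card {v // f.Q v = 0 ∧ v ≠ 0} ≤ Nat.card {v // f.Q v = 0} :=
      Nat.card_le_card_of_injective (fun v => ⟨v.1, v.2.1⟩) fun _ _ e => Subtype.ext (congrArg (·.1) e)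
    obtain ⟨q, hq⟩ : ∃ q, Nat.card F = q + 2 := Nat.exists_eq_add_of_le' Finite.one_lt_card
    simp only [Set.mem_ofPred_eq] at h3
    rw [hq] at h1 h3 ⊢
    rw [pow_succ _ (k + 1)]
    simp only [Nat.add_succ_sub_one] at h1
    nlinarith
  · rw [hf.card_isom_split hyp_nondeg _ h.isIsom_pairMap, card_embed_hyp]
    congr 1
    rw [Nat.card_congr (((Equiv.subtypeEquivRight (q := fun x : V × V => (f.Q x.1 = 0 ∧ x.1 ≠ 0) ∧ f.HypPair x.1 x.2)
      fun x => ⟨fun h => ⟨⟨h.Qu, h.u_ne_zero⟩, h⟩, fun h => h.2⟩).trans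
      (Equiv.subtypeProdEquivSigmaSubtype fun a b => (f.Q a = 0 ∧ a ≠ 0) ∧ f.HypPair a b))), Nat.card_sigma]
    classical
    rw [Nat.card_eq_fintype_card, Fintype.card_subtype, Finset.card_eq_sum_ones, Finset.sum_mul, Finset.sum_filter]
    refine Finset.sum_congr rfl fun v _ => ?_
    split_ifs with hv
    · rw [one_mul, ← card_hyp_orth hf hv.1 hv.2 (k := k + 1) hk]
      exact Nat.card_congr (Equiv.subtypeEquivRight fun _ => and_iff_right hv)
    · simp [hv]

omit [AddCommGroup V] [Module F V] [Finite V] in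
theorem card_orth_aux {r : ℕ} (hr : r ≤ 1) (m : ℕ) : ∀ (V : Type u) [AddCommGroup V] [Module F V] [Finite V]
    (f : Form (Param.orth F) V), f.Nondeg → finrank F V = 2 * m + r + 1 →
    2 * Nat.card F ^ (m * (m + r)) ∣ Nat.card f.Isom ∧
      2 ^ m * Nat.card f.Isom ≤ 4 * 3 ^ m * Nat.card F ^ ((m + r) * (2 * m + 1)) := by
  induction m with
  | zero =>
    intro V _ _ _ f hf h
    have : Nontrivial V := Module.nontrivial_of_finrank_pos (R := F) (by omega)
    refine ⟨by simpa using two_dvd_card hf, ?_⟩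
    interval_cases r
    · simpa using (card_one hf h).trans (by decide)
    · simpa using card_two hf h
  | succ m ih =>
    intro V _ _ _ f hf h
    obtain ⟨u, h0, hu⟩ := hf.orth_exists_singular (by omega)
    obtain ⟨e, he⟩ := hf.exists_hypPair hu h0
    obtain ⟨s, h1, h2⟩ := card_step hf he (k := 2 * m + r) (by omega)
    have h3 := hf.finrank_orth_range (he.isIsom_pairMap.comap_nondeg hyp_nondeg)
    obtain ⟨⟨c, h4⟩, h5⟩ := ih _ _ (hf.restrict_orth_range (he.isIsom_pairMap.comap_nondeg hyp_nondeg))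
      (by simp at h3; omega)
    rw [h2]
    refine ⟨⟨s * c, by rw [h4]; ring⟩, ?_⟩
    calc _ = 2 * s * Nat.card F ^ (2 * m + r + 1) * (2 ^ m * _) := by ring
      _ ≤ 3 * Nat.card F ^ (2 * m + r + 2) * Nat.card F ^ (2 * m + r + 1) * _ :=
        Nat.mul_le_mul (Nat.mul_le_mul_right _ h1) h5
      _ = _ := by ring

theorem orth_num {q m r n : ℕ} (hm : 3 ≤ m) (hq : 2 ≤ q) (hr : r = 1 ∨ r = 0 ∧ 3 ≤ q)
    (h : 2 ^ m * n ≤ 4 * 3 ^ m * q ^ ((m + r) * (2 * m + 1))) : n ^ 3 < q ^ (8 * (m * (m + r))) := by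
  obtain ⟨k, rfl⟩ := Nat.exists_eq_add_of_le' hm
  have h1 : 64 * 27 ^ (k + 3) < 8 ^ (k + 3) * q ^ ((k + 3 + r) * (2 * k + 3)) := by
    have h2 : 27 ^ k ≤ 64 ^ k := Nat.pow_le_pow_left (by decide) k
    have h3 : 0 < 27 ^ k := by positivity
    rcases hr with rfl | ⟨rfl, hq⟩
    · calc _ < 8 ^ (k + 3) * (2 ^ 3) ^ (k + 3 + 1) := by
            rw [show 8 ^ (k + 3) * (2 ^ 3) ^ (k + 3 + 1) = 2097152 * 64 ^ k by
              rw [show 64 = 8 * 8 from rfl, mul_pow]; ring, pow_add]
            omega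
        _ ≤ _ := by
            rw [mul_comm (k + 3 + 1), pow_mul]
            exact Nat.mul_le_mul_left _ (Nat.pow_le_pow_left ((Nat.pow_le_pow_left hq _).trans
              (Nat.pow_le_pow_right (by omega) (by omega))) _)
    · calc _ < 8 ^ (k + 3) * (3 ^ 3) ^ (k + 3 + 0) := by
            have : 1 ≤ 8 ^ k := Nat.one_le_pow _ _ (by decide)
            refine Nat.mul_lt_mul_of_lt_of_le ?_ le_rfl (by positivity)
            rw [pow_add]
            omega
        _ ≤ _ := by
            rw [mul_comm (k + 3 + 0), pow_mul]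
            exact Nat.mul_le_mul_left _ (Nat.pow_le_pow_left ((Nat.pow_le_pow_left hq _).trans
              (Nat.pow_le_pow_right (by omega) (by omega))) _)
  refine Nat.lt_of_mul_lt_mul_left (a := 8 ^ (k + 3)) ?_
  calc _ = (2 ^ (k + 3) * n) ^ 3 := by rw [mul_pow, ← pow_mul, mul_comm (k + 3), pow_mul]; rfl
    _ ≤ _ := Nat.pow_le_pow_left h 3
    _ = 64 * 27 ^ (k + 3) * q ^ (3 * ((k + 3 + r) * (2 * (k + 3) + 1))) := by
      rw [mul_pow, mul_pow, ← pow_mul 3, mul_comm (k + 3), pow_mul 3, ← pow_mul q, mul_comm _ 3]; rfl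
    _ < _ := Nat.mul_lt_mul_of_lt_of_le h1 le_rfl (by positivity)
    _ = _ := by rw [mul_assoc, ← pow_add]; congr 2; ring

omit [Fintype F] [Finite V] in
theorem not_dvd_center {P : Param F} {f : Form P V} {G : Type*} [Group G] [Finite G] {p : ℕ} (hp : p.Prime) [CharP F p]
    (φ : G →* f.Isom) (hφ : Function.Injective φ)
    (h : ∀ z ∈ Subgroup.center G, ∃ c : F, ∀ v, (φ z).1 v = c • v) : ¬ p ∣ Nat.card (Subgroup.center G) := by
  refine not_dvd_card_of hp fun z hz => Subtype.ext (hφ (Isom.ext fun v => ?_))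
  obtain ⟨c, hc⟩ := h z.1 z.2
  have h1 : ∀ n : ℕ, (φ (z ^ n).1).1 v = c ^ n • v := fun n => by
    induction n with
    | zero => simp
    | succ n ih => rw [pow_succ', Subgroup.coe_mul, map_mul, Isom.mul_apply, ih, hc, smul_smul, pow_succ']
  have h2 := h1 p
  rw [hz] at h2
  have := Fact.mk hp
  have h3 : (c - 1) ^ p • v = 0 := by
    rw [sub_pow_char, one_pow, sub_smul, ← h2]; simp
  rcases smul_eq_zero.1 h3 with h4 | h4
  · rw [hc, sub_eq_zero.1 (pow_eq_zero_iff hp.ne_zero |>.1 h4)]; simp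
  · simp [h4]

theorem big_omega (hf : f.Nondeg) {p : ℕ} (hp : p.Prime) [CharP F p] {m r : ℕ} (hm : 3 ≤ m)
    (hr : r = 1 ∨ r = 0 ∧ 3 ≤ Nat.card F) (h : finrank F V = 2 * m + r + 1) :
    Big p (Nat.card (commutator f.Isom ⧸ Subgroup.center (commutator f.Isom))) := by
  have h5 : 5 ≤ finrank F V := by omega
  obtain ⟨h1, h2⟩ := card_orth_aux (r := r) (by omega) m V f hf h
  obtain ⟨n, hn⟩ := exists_card_eq_pow F p
  refine Big.quot hp (not_dvd_center hp (commutator f.Isom).subtype Subtype.val_injective fun z hz => ?_)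
    (big_of ⟨n, hn⟩ (N := m * (m + r)) ?_ (lt_of_le_of_lt (Nat.pow_le_pow_left (Subgroup.card_le_card_group _) 3)
      (orth_num hm Finite.one_lt_card hr h2)))
  · obtain ⟨u, h0, hu⟩ := hf.orth_exists_singular (by omega)
    obtain ⟨e, he⟩ := hf.exists_hypPair hu h0
    have h3 := he.finrank_orth hf
    have : Nontrivial (f.orth (Submodule.span F {u, e})) := Module.nontrivial_of_finrank_pos (R := F) (by omega)
    obtain ⟨w, hw⟩ := (he.restrict_orth_nondeg hf).orth_exists_Q_ne
    refine scalar_of_fix_singular he ⟨w, _, (mem_orth_pair.1 w.2).1, (mem_orth_pair.1 w.2).2, f.orth_isLam w, hw⟩ _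
      fun x hx => ?_
    obtain ⟨c, hc⟩ := Submodule.mem_span_singleton.1
      (center_fix_sing hf (by omega) (fun hu h => isE_mem_comm hf h5 hu h) hz hx)
    exact ⟨c, hc.symm⟩
  rw [← (commutator f.Isom).index_mul_card] at h1
  by_cases h2 : p = 2
  · subst h2
    have h3 : commutator f.Isom = (hf.dickson (Or.inr h5)).ker := Subgroup.ext fun g => by
      rw [hf.mem_commutator_iff_even_res (Or.inr h5) (isSquare_of_two_eq_zero (CharP.cast_eq_zero F 2)),
        MonoidHom.mem_ker, hf.dickson_eq_one_iff]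
    have h4 : (commutator f.Isom).index ∣ 2 := by
      rw [h3, Subgroup.index_ker]
      simpa using (hf.dickson (Or.inr h5)).range.card_subgroup_dvd_card
    exact Nat.dvd_of_mul_dvd_mul_left two_pos (h1.trans (Nat.mul_dvd_mul_right h4 _))
  · have h3 : IsPGroup 2 (f.Isom ⧸ commutator f.Isom) := fun g => by
      obtain ⟨g, rfl⟩ := QuotientGroup.mk_surjective g
      exact ⟨1, by rw [pow_one, ← QuotientGroup.mk_pow, QuotientGroup.eq_one_iff]; exact hf.sq_mem_commutator (Or.inr h5) g⟩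
    have := Fact.mk Nat.prime_two
    obtain ⟨k, hk⟩ := h3.exists_card_eq
    rw [Subgroup.index, hk, hn] at h1
    rw [hn]
    exact ((((Nat.coprime_primes hp Nat.prime_two).2 h2).pow_left n).pow _ k).dvd_of_dvd_mul_left
      (Dvd.dvd.trans (Dvd.intro_left 2 rfl) h1)

end Cfsg.Agent.OrdB
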